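import Mathlib

/-!
# The group algebra of `ZMod m` (helper386, for S3572)
-/

set_option autoImplicit false

namespace Cfsg.Agent.H386.Dih

variable {m : ℕ} [NeZero m] {R : Type*} [CommRing R]

/-- the element of the group algebra of `ZMod m` with coefficients `f` -/
noncomputable def E (f : ZMod m → R) : AddMonoidAlgebra R (ZMod m) := ∑ i, AddMonoidAlgebra.single i (f i)

theorem coeff_E (f : ZMod m → R) (i : ZMod m) : (E f).coeff i = f i := by
  classical
  rw [E, AddMonoidAlgebra.coeff_sum, Finsupp.finsetSum_apply]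
  simp only [AddMonoidAlgebra.coeff_single, Finsupp.single_apply]
  rw [Finset.sum_ite_eq']
  simp

theorem ext_coeff {x y : AddMonoidAlgebra R (ZMod m)} (h : ∀ i, x.coeff i = y.coeff i) : x = y := by
  ext i
  exact h i

theorem E_coeff (x : AddMonoidAlgebra R (ZMod m)) : E (fun i => x.coeff i) = x :=
  ext_coeff fun i => coeff_E _ _

theorem E_inj {f g : ZMod m → R} (h : E f = E g) : f = g := by
  funext i
  rw [← coeff_E f, h, coeff_E]

theorem coeff_mul (x y : AddMonoidAlgebra R (ZMod m)) (k : ZMod m) :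
    (x * y).coeff k = ∑ i, x.coeff i * y.coeff (k - i) := by
  rw [AddMonoidAlgebra.coeff_mul_apply_left, Finsupp.sum_fintype]
  · refine Finset.sum_congr rfl fun i _ => ?_
    rw [neg_add_eq_sub]
  · intro b
    rw [zero_mul]

theorem E_mul (f g : ZMod m → R) : E f * E g = E (fun k => ∑ i, f i * g (k - i)) := by
  refine ext_coeff fun k => ?_
  rw [coeff_mul, coeff_E]
  exact Finset.sum_congr rfl fun i _ => by rw [coeff_E, coeff_E]

theorem E_add (f g : ZMod m → R) : E f + E g = E (fun k => f k + g k) := by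
  refine ext_coeff fun k => ?_
  rw [AddMonoidAlgebra.coeff_add, Finsupp.add_apply, coeff_E, coeff_E, coeff_E]

theorem E_smul (r : R) (f : ZMod m → R) : r • E f = E (fun k => r * f k) := by
  refine ext_coeff fun k => ?_
  rw [AddMonoidAlgebra.coeff_smul, Finsupp.smul_apply, coeff_E, coeff_E, smul_eq_mul]

/-- `(E f) ^ q` in characteristic `q` -/
theorem E_pow_char (q : ℕ) [hq : Fact q.Prime] (f : ZMod m → ZMod q) (i : ZMod m) :
    ((E f) ^ q).coeff i = ∑ j ∈ Finset.univ.filter (fun j : ZMod m => q • j = i), f j := by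
  classical
  haveI : CharP (AddMonoidAlgebra (ZMod q) (ZMod m)) q := by
    refine charP_of_injective_ringHom
      (f := (AddMonoidAlgebra.singleZeroRingHom : ZMod q →+* AddMonoidAlgebra (ZMod q) (ZMod m))) ?_ q
    intro a b hab
    have := congrArg (fun x : AddMonoidAlgebra (ZMod q) (ZMod m) => x.coeff 0) hab
    simpa [AddMonoidAlgebra.singleZeroRingHom] using this
  have h : (E f) ^ q = ∑ j, AddMonoidAlgebra.single (q • j) (f j) := by
    rw [E, sum_pow_char]
    refine Finset.sum_congr rfl fun t _ => ?_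
    rw [AddMonoidAlgebra.single_pow, ZMod.pow_card]
  rw [h, AddMonoidAlgebra.coeff_sum, Finsupp.finsetSum_apply]
  simp only [AddMonoidAlgebra.coeff_single, Finsupp.single_apply]
  rw [Finset.sum_filter]

end Cfsg.Agent.H386.Dih
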