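import Cfsg.Agent.H386.Dih.Basic
import Cfsg.Agent.H386.Dih.Alg

/-!
# Schur rings over dihedral groups: the `q`-th power (helper386, for S3572)
-/

set_option autoImplicit false
set_option linter.unusedSectionVars false

namespace Cfsg.Agent.H386.Dih

open DihedralGroup Matrix

variable {m : ℕ} [NeZero m] {s : Setoid (DihedralGroup m)}

/-- convolution powers -/
noncomputable def cpow (f : DihedralGroup m → ℤ) : ℕ → DihedralGroup m → ℤ
  | 0 => ind {1}
  | n + 1 => conv f (cpow f n)

theorem SR.cpow (h : SR s) {f : DihedralGroup m → ℤ} (hf : Fn s f) (n : ℕ) : Fn s (cpow f n) := by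
  induction n with
  | zero => exact h.ss_one.fn
  | succ n ih => exact h.conv _ _ hf ih

theorem sum_cpow (f : DihedralGroup m → ℤ) (n : ℕ) : ∑ x, cpow f n x = (∑ x, f x) ^ n := by
  induction n with
  | zero =>
    classical
    rw [pow_zero]
    have : ∀ x ∈ (Finset.univ : Finset (DihedralGroup m)), x ≠ 1 → cpow f 0 x = 0 := fun x _ hx => ind_of_not_mem hx
    rw [Finset.sum_eq_single_of_mem 1 (Finset.mem_univ _) this]
    exact ind_of_mem rfl
  | succ n ih =>
    rw [cpow, sum_conv, ih, pow_succ, mul_comm]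

section R

variable {R : Type*} [CommRing R]

/-- the rotation part -/
noncomputable def RA (R : Type*) [CommRing R] (f : DihedralGroup m → ℤ) : AddMonoidAlgebra R (ZMod m) :=
  E (fun i => ((f (r i) : ℤ) : R))

/-- the reflection part -/
noncomputable def RB (R : Type*) [CommRing R] (f : DihedralGroup m → ℤ) : AddMonoidAlgebra R (ZMod m) :=
  E (fun i => ((f (sr i) : ℤ) : R))

/-- the inverted reflection part -/
noncomputable def RS (R : Type*) [CommRing R] (f : DihedralGroup m → ℤ) : AddMonoidAlgebra R (ZMod m) :=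
  E (fun i => ((f (sr (-i)) : ℤ) : R))

theorem RA_conv (f g : DihedralGroup m → ℤ) : RA R (conv f g) = RA R f * RA R g + RS R f * RB R g := by
  rw [RA, RA, RA, RS, RB, E_mul, E_mul, E_add]
  congr 1
  funext k
  rw [conv_r]
  push_cast
  rfl

theorem RB_conv {f g : DihedralGroup m → ℤ} (hf : ∀ i, f (r (-i)) = f (r i)) :
    RB R (conv f g) = RA R f * RB R g + RB R f * RA R g := by
  rw [RA, RA, RB, RB, RB, E_mul, E_mul, E_add]
  congr 1
  funext k
  rw [conv_sr]
  push_cast
  simp only [hf]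

end R

theorem cpow_mat (R : Type*) [CommRing R] {f : DihedralGroup m → ℤ} (hf : ∀ i, f (r (-i)) = f (r i)) (n : ℕ) :
    ((!![RA R f, RS R f; RB R f, RA R f] : Matrix (Fin 2) (Fin 2) (AddMonoidAlgebra R (ZMod m))) ^ n) 0 0 =
      RA R (cpow f n) ∧
    ((!![RA R f, RS R f; RB R f, RA R f] : Matrix (Fin 2) (Fin 2) (AddMonoidAlgebra R (ZMod m))) ^ n) 1 0 =
      RB R (cpow f n) := by
  induction n with
  | zero =>
    rw [pow_zero]
    constructor
    · rw [one_apply_eq, RA]
      refine ext_coeff fun k => ?_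
      rw [coeff_E, AddMonoidAlgebra.one_def, AddMonoidAlgebra.coeff_single, Finsupp.single_apply]
      by_cases hk : k = 0
      · subst hk
        rw [if_pos rfl, cpow, ind_of_mem (by rw [Set.mem_singleton_iff]; exact one_def.symm)]
        norm_num
      · rw [if_neg (Ne.symm hk), cpow, ind_of_not_mem]
        · norm_num
        · rw [Set.mem_singleton_iff, one_def]
          intro h
          exact hk (by injection h)
    · rw [one_apply_ne (by decide), RB]
      refine ext_coeff fun k => ?_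
      rw [coeff_E, cpow, ind_of_not_mem]
      · simp
      · rw [Set.mem_singleton_iff, one_def]
        intro h
        cases h
  | succ n ih =>
    rw [pow_succ', cpow, RA_conv, RB_conv hf, ← ih.1, ← ih.2, mul_apply, mul_apply, Fin.sum_univ_two, Fin.sum_univ_two]
    constructor
    · simp
    · simp
      ring

theorem charP_alg (q : ℕ) [hq : Fact q.Prime] : CharP (AddMonoidAlgebra (ZMod q) (ZMod m)) q := by
  refine charP_of_injective_ringHom
    (f := (AddMonoidAlgebra.singleZeroRingHom : ZMod q →+* AddMonoidAlgebra (ZMod q) (ZMod m))) ?_ q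
  intro a b hab
  have := congrArg (fun x : AddMonoidAlgebra (ZMod q) (ZMod m) => x.coeff 0) hab
  simpa [AddMonoidAlgebra.singleZeroRingHom] using this

/-- the `q`-th convolution power modulo `q` -/
theorem cpow_char (q : ℕ) [hq : Fact q.Prime] {k : ℕ} (hk : q = 2 * k + 1) {f : DihedralGroup m → ℤ}
    (hsym : ∀ i, f (r (-i)) = f (r i)) :
    RA (ZMod q) (cpow f q) = RA (ZMod q) f ^ q ∧
      RB (ZMod q) (cpow f q) = (RS (ZMod q) f * RB (ZMod q) f) ^ k * RB (ZMod q) f := by
  have := charP_alg (m := m) q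
  obtain ⟨h1, h1'⟩ := cpow_mat (ZMod q) hsym q
  set A := RA (ZMod q) f with hA
  set B := RB (ZMod q) f with hB
  set C := RS (ZMod q) f with hC
  have h2 : (!![A, C; B, A] : Matrix (Fin 2) (Fin 2) (AddMonoidAlgebra (ZMod q) (ZMod m))) =
      A • (1 : Matrix (Fin 2) (Fin 2) (AddMonoidAlgebra (ZMod q) (ZMod m))) + !![0, C; B, 0] := by
    ext a b
    fin_cases a <;> fin_cases b <;> simp
  have h3 : (!![0, C; B, 0] : Matrix (Fin 2) (Fin 2) (AddMonoidAlgebra (ZMod q) (ZMod m))) ^ 2 = (C * B) • 1 := by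
    rw [pow_two]
    ext a b
    fin_cases a <;> fin_cases b <;> simp [mul_apply, Fin.sum_univ_two, mul_comm]
  have h4 : Commute (A • (1 : Matrix (Fin 2) (Fin 2) (AddMonoidAlgebra (ZMod q) (ZMod m))))
      (!![0, C; B, 0] : Matrix (Fin 2) (Fin 2) (AddMonoidAlgebra (ZMod q) (ZMod m))) :=
    (Commute.one_left _).smul_left _
  rw [h2, add_pow_char_of_commute (R := Matrix (Fin 2) (Fin 2) (AddMonoidAlgebra (ZMod q) (ZMod m))) q h4,
    smul_pow, one_pow] at h1 h1'
  have h5 : ∀ n : ℕ, n = 2 * k + 1 →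
      (!![0, C; B, 0] : Matrix (Fin 2) (Fin 2) (AddMonoidAlgebra (ZMod q) (ZMod m))) ^ n =
      (C * B) ^ k • !![0, C; B, 0] := by
    rintro _ rfl
    rw [pow_succ, pow_mul, h3, smul_pow, one_pow, smul_one_mul]
  have h5 := h5 q hk
  rw [h5] at h1 h1'
  simp at h1 h1'
  exact ⟨h1.symm, h1'.symm⟩

theorem SR.sym (h : SR s) {α : Type*} {f : DihedralGroup m → α} (hf : Fn s f) (i : ZMod m) : f (r (-i)) = f (r i) := by
  rw [← inv_r]
  exact (hf _ _ (h.rel_inv _)).symm

/-- **The `q`-th power.** -/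
theorem SR.frob (h : SR s) (q : ℕ) [hq : Fact q.Prime] (hq2 : q ≠ 2) {f : DihedralGroup m → ℤ} (hf : Fn s f) :
    ∃ g : DihedralGroup m → ℤ, Fn s g ∧
      (∀ i, ((g (r i) : ℤ) : ZMod q) =
        ∑ j ∈ Finset.univ.filter (fun j : ZMod m => q • j = i), ((f (r j) : ℤ) : ZMod q)) ∧
      ((∑ x, g x : ℤ) : ZMod q) = ((∑ x, f x : ℤ) : ZMod q) := by
  refine ⟨Dih.cpow f q, h.cpow hf q, ?_, ?_⟩
  · intro i
    obtain ⟨k, hk⟩ : Odd q := hq.out.odd_of_ne_two hq2
    have h6 := congrArg (fun x => x.coeff i) (cpow_char q hk (fun i => h.sym hf i)).1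
    simp only [RA, coeff_E, E_pow_char] at h6
    exact h6
  · rw [sum_cpow]
    push_cast
    rw [ZMod.pow_card]

end Cfsg.Agent.H386.Dih
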