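import Cfsg.Agent.H386.Dih.Rat

/-!
# Schur rings over dihedral groups: the rational hull (helper386, for S3572)
-/

set_option autoImplicit false
set_option linter.unusedSectionVars false

namespace Cfsg.Agent.H386.Dih

open DihedralGroup

variable {m : ℕ} [NeZero m] {s : Setoid (DihedralGroup m)}

/-- rotations of the same order -/
def ordRel (x y : DihedralGroup m) : Prop := ∃ i j : ZMod m, x = r i ∧ y = r j ∧ addOrderOf i = addOrderOf j

/-- rational Schur rings -/
def Rat (s : Setoid (DihedralGroup m)) : Prop := ∀ i j : ZMod m, addOrderOf i = addOrderOf j → s (r i) (r j)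

theorem rat_gen : Rat (gen s ordRel) := fun i j h => gen_of ⟨i, j, rfl, rfl, h⟩

/-- the involution of the group algebra -/
noncomputable def star (R : Type*) [CommRing R] : AddMonoidAlgebra R (ZMod m) →+* AddMonoidAlgebra R (ZMod m) :=
  AddMonoidAlgebra.mapDomainRingHom R (AddEquiv.neg (ZMod m)).toAddMonoidHom

theorem star_E {R : Type*} [CommRing R] (f : ZMod m → R) : star R (E f) = E (fun i => f (-i)) := by
  rw [E, map_sum, E, ← Equiv.sum_comp (Equiv.neg (ZMod m))]
  refine Finset.sum_congr rfl fun i _ => ?_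
  show AddMonoidAlgebra.mapDomain _ _ = _
  rw [AddMonoidAlgebra.mapDomain_single]
  simp

theorem star_RB (R : Type*) [CommRing R] (f : DihedralGroup m → ℤ) : star R (RB R f) = RS R f := star_E _

theorem star_RS (R : Type*) [CommRing R] (f : DihedralGroup m → ℤ) : star R (RS R f) = RB R f := by
  rw [RS, star_E, RB]
  simp only [neg_neg]

theorem star_RA (R : Type*) [CommRing R] {f : DihedralGroup m → ℤ} (hf : ∀ i, f (r (-i)) = f (r i)) :
    star R (RA R f) = RA R f := by
  rw [RA, star_E]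
  simp only [hf]

/-- commutativity -/
theorem SR.rs_rb (h : SR s) (R : Type*) [CommRing R] {f g : DihedralGroup m → ℤ} (hf : Fn s f) (hg : Fn s g) :
    RS R f * RB R g = RB R f * RS R g := by
  have h1 := star_RA R (fun i => h.sym (h.conv f g hf hg) i)
  rw [RA_conv, map_add, map_mul, map_mul, star_RA R (fun i => h.sym hf i), star_RA R (fun i => h.sym hg i), star_RS,
    star_RB] at h1
  exact (add_left_cancel h1).symm

theorem cast_fn {q : ℕ} {f : DihedralGroup m → ℤ} (hf : Fn s f) : Fn s (fun x => ((f x : ℤ) : ZMod q)) :=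
  hf.comp (fun a : ℤ => (a : ZMod q))

theorem hull_pow (hm : 2 ≤ m) (h : SR s) (q : ℕ) [hq : Fact q.Prime] {k : ℕ} (hk : q = 2 * k + 1) (hqm : q.Coprime m)
    {f : DihedralGroup m → ℤ} (hf : Fn (gen s ordRel) f) :
    RA (ZMod q) f ^ q = RA (ZMod q) f ∧
      (RS (ZMod q) f * RB (ZMod q) f) ^ k * RB (ZMod q) f = RB (ZMod q) f := by
  obtain ⟨hf1, hf2⟩ := fn_gen.1 hf
  obtain ⟨h1, h2⟩ := cpow_char q hk (fun i => h.sym hf1 i)
  have h3 : RA (ZMod q) f ^ q = RA (ZMod q) f := by
    refine ext_coeff fun i => ?_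
    obtain ⟨j, rfl⟩ := smul_surj hqm i
    rw [RA, E_pow_char, sum_fiber hqm, coeff_E, hf2 (r j) (r (q • j)) ⟨j, q • j, rfl, rfl,
      (order_smul_of_coprime hqm j).symm⟩]
  refine ⟨h3, ?_⟩
  rw [h3] at h1
  have h4 : (fun x => ((cpow f q x : ℤ) : ZMod q)) = fun x => ((f x : ℤ) : ZMod q) :=
    h.fn_ext hm (cast_fn (h.cpow hf1 q)) (cast_fn hf1) fun i => congrFun (E_inj h1) i
  rw [← h2]
  exact congrArg E (funext fun i => congrFun h4 (sr i))

/-- **The rational hull is a Schur ring.** -/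
theorem SR.hull (hm : 2 ≤ m) (h : SR s) : SR (Dih.gen s ordRel) := by
  refine h.gen ?_ ?_
  · rintro _ _ ⟨i, j, rfl, rfl, hij⟩
    rw [one_def]
    constructor
    · intro h1
      have h2 : i = 0 := by injection h1
      rw [h2, addOrderOf_zero] at hij
      rw [AddMonoid.addOrderOf_eq_one_iff.1 hij.symm]
    · intro h1
      have h2 : j = 0 := by injection h1
      rw [h2, addOrderOf_zero] at hij
      rw [AddMonoid.addOrderOf_eq_one_iff.1 hij]
  · rintro f g hf hg _ _ ⟨i, j, rfl, rfl, hij⟩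
    obtain ⟨q, hq, hqp, rfl⟩ := exists_prime_smul hij
      (m + 2 + (Dih.conv f g (r i)).natAbs + (Dih.conv f g (r j)).natAbs)
    have : Fact q.Prime := ⟨hqp⟩
    have hqm : q.Coprime m := (Nat.Prime.coprime_iff_not_dvd hqp).2 fun hd => by
      have := Nat.le_of_dvd (Nat.pos_of_ne_zero (NeZero.ne m)) hd
      omega
    obtain ⟨k, hk⟩ : Odd q := hqp.odd_of_ne_two (by omega)
    obtain ⟨hf1, hf2⟩ := hull_pow hm h q hk hqm hf
    obtain ⟨hg1, hg2⟩ := hull_pow hm h q hk hqm hg
    have hs := h.rs_rb (ZMod q) (fn_gen.1 hf).1 (fn_gen.1 hg).1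
    have hf3 := congrArg (star (ZMod q)) hf2
    rw [map_mul, map_pow, map_mul, star_RS, star_RB] at hf3
    have := charP_alg (m := m) q
    have h1 : RA (ZMod q) (Dih.conv f g) ^ q = RA (ZMod q) (Dih.conv f g) := by
      rw [RA_conv, add_pow_char, mul_pow, hf1, hg1]
      congr 1
      have h2 : ∀ n, n = 2 * k + 1 → (RS (ZMod q) f * RB (ZMod q) g) ^ n = RS (ZMod q) f * RB (ZMod q) g := by
        rintro _ rfl
        calc (RS (ZMod q) f * RB (ZMod q) g) ^ (2 * k + 1) =
            (RS (ZMod q) f * RB (ZMod q) g) ^ k * ((RS (ZMod q) f * RB (ZMod q) g) ^ k *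
              (RS (ZMod q) f * RB (ZMod q) g)) := by ring
          _ = (RB (ZMod q) f * RS (ZMod q) g) ^ k * ((RS (ZMod q) f * RB (ZMod q) g) ^ k *
              (RS (ZMod q) f * RB (ZMod q) g)) := by rw [hs]
          _ = ((RB (ZMod q) f * RS (ZMod q) f) ^ k * RS (ZMod q) f) *
              ((RS (ZMod q) g * RB (ZMod q) g) ^ k * RB (ZMod q) g) := by
                simp only [mul_pow]
                ring
          _ = _ := by rw [hf3, hg2]
      exact h2 q hk
    have h2 := congrArg (fun x => x.coeff (q • i)) h1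
    simp only [RA, E_pow_char] at h2
    rw [sum_fiber hqm, coeff_E] at h2
    have h3 := (ZMod.intCast_eq_intCast_iff_dvd_sub _ _ _).1 h2
    have h4 := Int.eq_zero_of_abs_lt_dvd h3 (by
      rw [Int.abs_eq_natAbs]
      omega)
    omega

end Cfsg.Agent.H386.Dih
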