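import Cfsg.Agent.H386.Dih.Hull

/-!
# Schur rings over dihedral groups: from the rational hull to the ring (helper386, for S3572)
-/

set_option autoImplicit false
set_option linter.unusedSectionVars false

namespace Cfsg.Agent.H386.Dih

open DihedralGroup

variable {m : ℕ} [NeZero m] {s : Setoid (DihedralGroup m)}

theorem sum_ind_le (X : Set (DihedralGroup m)) : ∑ x, ind X x ≤ 2 * m := by
  have h1 : ∀ x ∈ (Finset.univ : Finset (DihedralGroup m)), ind X x ≤ 1 := by
    intro x _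
    by_cases hx : x ∈ X
    · rw [ind_of_mem hx]
    · rw [ind_of_not_mem hx]; norm_num
  refine (Finset.sum_le_sum h1).trans ?_
  rw [Finset.sum_const, Finset.card_univ, DihedralGroup.card]
  simp

theorem SR.mult (hm : 2 ≤ m) (h : SR s) {X : Set (DihedralGroup m)} (hX : SS s X) (u : (ZMod m)ˣ) :
    ∃ Y, SS s Y ∧ (∀ i : ZMod m, r ((u : ZMod m) * i) ∈ Y ↔ r i ∈ X) ∧ ∑ x, ind Y x = ∑ x, ind X x := by
  obtain ⟨q, hq, hqp, hqu⟩ := Nat.forall_exists_prime_gt_and_eq_mod u.isUnit (2 * m + 2)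
  have : Fact q.Prime := ⟨hqp⟩
  have hqm : q.Coprime m := (Nat.Prime.coprime_iff_not_dvd hqp).2 fun hd => by
    have := Nat.le_of_dvd (Nat.pos_of_ne_zero (NeZero.ne m)) hd
    omega
  obtain ⟨g, hg1, hg2, hg3⟩ := h.frob q (by omega) hX.fn
  have hg4 : ∀ i, ((g (r (q • i)) : ℤ) : ZMod q) = ((ind X (r i) : ℤ) : ZMod q) := by
    intro i
    rw [hg2, sum_fiber hqm]
  have hY : ∀ i, r (q • i) ∈ {x | ((g x : ℤ) : ZMod q) = 1} ↔ r i ∈ X := by
    intro i
    rw [Set.mem_setOf_eq, hg4]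
    by_cases hi : r i ∈ X
    · rw [ind_of_mem hi]; simp [hi]
    · rw [ind_of_not_mem hi]; simp [hi]
  have hss : SS s {x | ((g x : ℤ) : ZMod q) = 1} := (cast_fn hg1).ss 1
  refine ⟨{x | ((g x : ℤ) : ZMod q) = 1}, hss, ?_, ?_⟩
  · intro i
    rw [← hY i, nsmul_eq_mul, hqu]
  · have h1 : (fun x => ((g x : ℤ) : ZMod q)) =
        fun x => ((ind {x | ((g x : ℤ) : ZMod q) = 1} x : ℤ) : ZMod q) := by
      refine h.fn_ext hm (cast_fn hg1) (cast_fn hss.fn) fun i => ?_
      obtain ⟨j, rfl⟩ := smul_surj hqm i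
      rw [hg4]
      by_cases hi : r j ∈ X
      · rw [ind_of_mem hi, ind_of_mem ((hY j).2 hi)]
      · rw [ind_of_not_mem hi, ind_of_not_mem (fun hc => hi ((hY j).1 hc))]
    have h2 : ((∑ x, ind {x | ((g x : ℤ) : ZMod q) = 1} x : ℤ) : ZMod q) = ((∑ x, ind X x : ℤ) : ZMod q) := by
      rw [← hg3]
      push_cast
      exact Finset.sum_congr rfl fun x _ => (congrFun h1 x).symm
    have h3 := (ZMod.intCast_eq_intCast_iff_dvd_sub _ _ _).1 h2
    have h4 := sum_ind_le X
    have h5 := sum_ind_le {x | ((g x : ℤ) : ZMod q) = 1}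
    have h6 : 0 ≤ ∑ x, ind X x := Finset.sum_nonneg fun x _ => ind_nonneg _ _
    have h7 : 0 ≤ ∑ x, ind {x | ((g x : ℤ) : ZMod q) = 1} x := Finset.sum_nonneg fun x _ => ind_nonneg _ _
    have h8 := Int.eq_zero_of_abs_lt_dvd h3 (by
      rw [Int.abs_eq_natAbs]
      omega)
    omega

/-- **If the rational hull is trivial, the ring is trivial.** -/
theorem SR.of_hull (hm : 2 ≤ m) (h : SR s)
    (ht : ∀ i j : ZMod m, i ≠ 0 → j ≠ 0 → Dih.gen s ordRel (r i) (r j)) {i j : ZMod m} (hi : i ≠ 0) (hj : j ≠ 0) :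
    s (r i) (r j) := by
  classical
  set X : Set (DihedralGroup m) := {y | s (r i) y} with hXdef
  have hX : SS s X := ss_class _
  have hr0 : r (0 : ZMod m) ∉ X := fun hc => by
    have h1 := h.one _ (show s (r i) 1 by rw [one_def]; exact hc)
    rw [one_def] at h1
    exact hi (by injection h1)
  choose Y hY1 hY2 hY3 using fun u => h.mult hm hX u
  set F : DihedralGroup m → ℤ := fun x => ∑ u, ind (Y u) x with hF
  have hFr : ∀ i, F (r i) = ∑ u : (ZMod m)ˣ, ind X (r (((u⁻¹ : (ZMod m)ˣ) : ZMod m) * i)) := by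
    intro i
    refine Finset.sum_congr rfl fun u _ => ?_
    have h1 := hY2 u (((u⁻¹ : (ZMod m)ˣ) : ZMod m) * i)
    rw [← mul_assoc, Units.mul_inv, one_mul] at h1
    by_cases hc : r (((u⁻¹ : (ZMod m)ˣ) : ZMod m) * i) ∈ X
    · rw [ind_of_mem hc, ind_of_mem (h1.2 hc)]
    · rw [ind_of_not_mem hc, ind_of_not_mem (fun h2 => hc (h1.1 h2))]
  have hFfn : Fn (Dih.gen s ordRel) F := by
    rw [fn_gen]
    constructor
    · intro x y hxy
      exact Finset.sum_congr rfl fun u _ => (hY1 u).fn x y hxy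
    · rintro _ _ ⟨a, b, rfl, rfl, hab⟩
      obtain ⟨q, hq, hqp, rfl⟩ := exists_prime_smul hab m
      have hqm : q.Coprime m := (Nat.Prime.coprime_iff_not_dvd hqp).2 fun hd => by
        have := Nat.le_of_dvd (Nat.pos_of_ne_zero (NeZero.ne m)) hd
        omega
      set v := ZMod.unitOfCoprime q hqm with hv
      have hqv : q • a = (v : ZMod m) * a := by rw [nsmul_eq_mul]; rfl
      rw [hFr, hFr, hqv, ← Equiv.sum_comp (Equiv.mulLeft v) (fun u : (ZMod m)ˣ =>
        ind X (r (((u⁻¹ : (ZMod m)ˣ) : ZMod m) * ((v : ZMod m) * a))))]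
      refine Finset.sum_congr rfl fun u _ => ?_
      rw [Equiv.coe_mulLeft, mul_inv, Units.val_mul]
      congr 2
      rw [mul_comm ((v⁻¹ : (ZMod m)ˣ) : ZMod m), mul_assoc, ← mul_assoc ((v⁻¹ : (ZMod m)ˣ) : ZMod m), Units.inv_mul,
        one_mul]
  have hF0 : F (r 0) = 0 := by
    rw [hFr]
    refine Finset.sum_eq_zero fun u _ => ?_
    rw [mul_zero, ind_of_not_mem hr0]
  have hFc : ∀ k : ZMod m, k ≠ 0 → F (r k) = F (r i) := fun k hk => hFfn _ _ (ht k i hk hi)
  have hFc' : ∀ x : DihedralGroup m, x ≠ 1 → F x = F (r i) := by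
    intro x hx
    obtain ⟨k, hk, hxk⟩ := h.exists_r hm hx
    rw [(fn_gen.1 hFfn).1 _ _ hxk, hFc k hk]
  have hs1 : ∑ k, F (r k) = F (r i) * (m - 1) := by
    rw [← Finset.add_sum_erase _ _ (Finset.mem_univ (0 : ZMod m)), hF0, zero_add,
      Finset.sum_congr rfl (fun k hk => hFc k (Finset.ne_of_mem_erase hk)), Finset.sum_const,
      Finset.card_erase_of_mem (Finset.mem_univ _), Finset.card_univ, ZMod.card, nsmul_eq_mul, Nat.cast_sub (by omega)]
    push_cast
    ring
  have hs2 : ∑ x, F x = F (r i) * (2 * m - 1) := by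
    rw [← Finset.add_sum_erase _ _ (Finset.mem_univ (1 : DihedralGroup m)), one_def, hF0, zero_add,
      Finset.sum_congr rfl (fun k hk => hFc' k (by rw [one_def]; exact Finset.ne_of_mem_erase hk)), Finset.sum_const,
      Finset.card_erase_of_mem (Finset.mem_univ _), Finset.card_univ, DihedralGroup.card, nsmul_eq_mul,
      Nat.cast_sub (by omega)]
    push_cast
    ring
  set φ : ℤ := (Fintype.card (ZMod m)ˣ : ℤ) with hφ
  have hφ0 : 0 < φ := by
    rw [hφ]
    exact_mod_cast Fintype.card_pos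
  have hs3 : ∑ k, F (r k) = φ * ∑ k, ind X (r k) := by
    simp only [hFr]
    rw [Finset.sum_comm]
    have : ∀ u ∈ (Finset.univ : Finset (ZMod m)ˣ), ∑ k, ind X (r (((u⁻¹ : (ZMod m)ˣ) : ZMod m) * k)) =
        ∑ k, ind X (r k) := by
      intro u _
      exact Equiv.sum_comp (Units.mulLeft (u⁻¹ : (ZMod m)ˣ)) (fun k => ind X (r k))
    rw [Finset.sum_congr rfl this, Finset.sum_const, Finset.card_univ, nsmul_eq_mul]
  have hs4 : ∑ x, F x = φ * ∑ x, ind X x := by
    simp only [hF]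
    rw [Finset.sum_comm, Finset.sum_congr rfl (fun u _ => hY3 u), Finset.sum_const, Finset.card_univ, nsmul_eq_mul]
  set a := ∑ x, ind X x with ha
  set b := ∑ k, ind X (r k) with hb
  have h1 : a * (m - 1) = b * (2 * m - 1) := by
    have h2 : φ * (a * (m - 1)) = φ * (b * (2 * m - 1)) := by
      calc φ * (a * (m - 1)) = (φ * a) * (m - 1) := by ring
        _ = F (r i) * (2 * m - 1) * (m - 1) := by rw [← hs4, hs2]
        _ = (F (r i) * (m - 1)) * (2 * m - 1) := by ring
        _ = (φ * b) * (2 * m - 1) := by rw [← hs3, hs1]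
        _ = _ := by ring
    exact mul_left_cancel₀ hφ0.ne' h2
  have h2 : ((m : ℤ) - 1) ∣ b := by
    refine ⟨a - 2 * b, ?_⟩
    linear_combination -h1
  have h3 : 0 < b := by
    rw [hb]
    refine Finset.sum_pos' (fun k _ => ind_nonneg _ _) ⟨i, Finset.mem_univ _, ?_⟩
    rw [ind_of_mem (show r i ∈ X from s.refl _)]
    norm_num
  have h4 := Int.le_of_dvd h3 h2
  by_contra hcon
  have h5 : b ≤ m - 2 := by
    have h6 : b = ∑ k ∈ (Finset.univ.erase (0 : ZMod m)).erase j, ind X (r k) := by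
      rw [hb, ← Finset.add_sum_erase _ _ (Finset.mem_univ (0 : ZMod m)), ind_of_not_mem hr0, zero_add,
        ← Finset.add_sum_erase _ _ (Finset.mem_erase.2 ⟨hj, Finset.mem_univ j⟩),
        ind_of_not_mem (show r j ∉ X from hcon), zero_add]
    rw [h6]
    have h7 : ∀ k ∈ (Finset.univ.erase (0 : ZMod m)).erase j, ind X (r k) ≤ 1 := by
      intro k _
      by_cases hx : r k ∈ X
      · rw [ind_of_mem hx]
      · rw [ind_of_not_mem hx]; norm_num
    refine (Finset.sum_le_sum h7).trans ?_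
    rw [Finset.sum_const, Finset.card_erase_of_mem (Finset.mem_erase.2 ⟨hj, Finset.mem_univ j⟩),
      Finset.card_erase_of_mem (Finset.mem_univ _), Finset.card_univ, ZMod.card, nsmul_eq_mul]
    omega
  omega

end Cfsg.Agent.H386.Dih
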