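import Cfsg.Agent.H386.Dih.Frob

/-!
# Schur rings over dihedral groups: multipliers (helper386, for S3572)
-/

set_option autoImplicit false
set_option linter.unusedSectionVars false

namespace Cfsg.Agent.H386.Dih

open DihedralGroup

variable {m : ℕ} [NeZero m] {s : Setoid (DihedralGroup m)}

/-- the coarser relation generated by `ρ` -/
def gen (s : Setoid (DihedralGroup m)) (ρ : DihedralGroup m → DihedralGroup m → Prop) : Setoid (DihedralGroup m) :=
  Relation.EqvGen.setoid (fun x y => s x y ∨ ρ x y)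

variable {ρ : DihedralGroup m → DihedralGroup m → Prop}

theorem gen_le {x y : DihedralGroup m} (h : s x y) : gen s ρ x y := Relation.EqvGen.rel _ _ (Or.inl h)

theorem gen_of {x y : DihedralGroup m} (h : ρ x y) : gen s ρ x y := Relation.EqvGen.rel _ _ (Or.inr h)

theorem fn_gen {α : Type*} {f : DihedralGroup m → α} :
    Fn (gen s ρ) f ↔ Fn s f ∧ ∀ x y, ρ x y → f x = f y := by
  constructor
  · intro h
    exact ⟨fun x y hxy => h x y (gen_le hxy), fun x y hxy => h x y (gen_of hxy)⟩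
  · rintro ⟨h1, h2⟩ x y hxy
    induction hxy with
    | rel x y h => exact h.elim (h1 x y) (h2 x y)
    | refl x => rfl
    | symm x y _ ih => exact ih.symm
    | trans x y z _ _ ih1 ih2 => exact ih1.trans ih2

theorem SR.gen (h : SR s) (h1 : ∀ x y, ρ x y → (x = 1 ↔ y = 1))
    (hc : ∀ f g, Fn (gen s ρ) f → Fn (gen s ρ) g → ∀ x y, ρ x y → Dih.conv f g x = Dih.conv f g y) :
    SR (gen s ρ) := by
  refine h.coarsen (fun x y hxy => gen_le hxy) ?_ ?_ (fun x => gen_le (h.rel_inv x))
  · intro x hx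
    have h2 : Fn (Dih.gen s ρ) (fun x => x = 1) := by
      rw [fn_gen]
      refine ⟨fun x y hxy => ?_, fun x y hxy => propext (h1 x y hxy)⟩
      exact propext (h.ss_one.iff hxy)
    have h3 := h2 x 1 hx
    exact h3.mpr rfl
  · intro f g hf hg
    rw [fn_gen]
    exact ⟨h.conv f g (fn_gen.1 hf).1 (fn_gen.1 hg).1, hc f g hf hg⟩

theorem mem_zmultiples_of_order {i j : ZMod m} (h : addOrderOf i = addOrderOf j) : j ∈ AddSubgroup.zmultiples i := by
  classical
  have h0 : 0 < addOrderOf i := addOrderOf_pos i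
  have h1 := IsAddCyclic.card_nsmul_eq_zero_le (α := ZMod m) (n := addOrderOf i) h0
  have h2 : (AddSubgroup.zmultiples i : Set (ZMod m)).toFinset ⊆
      Finset.univ.filter (fun a : ZMod m => addOrderOf i • a = 0) := by
    intro a ha
    rw [Set.mem_toFinset] at ha
    obtain ⟨k, rfl⟩ := ha
    rw [Finset.mem_filter]
    refine ⟨Finset.mem_univ _, ?_⟩
    show addOrderOf i • (k • i) = 0
    rw [smul_comm, addOrderOf_nsmul_eq_zero, smul_zero]
  have h3 : (AddSubgroup.zmultiples i : Set (ZMod m)).toFinset.card = addOrderOf i := by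
    rw [Set.toFinset_card, ← Nat.card_eq_fintype_card]
    exact Nat.card_zmultiples i
  have h4 := Finset.eq_of_subset_of_card_le h2 (by rw [h3]; exact h1)
  have h5 : j ∈ Finset.univ.filter (fun a : ZMod m => addOrderOf i • a = 0) := by
    rw [Finset.mem_filter, h]
    exact ⟨Finset.mem_univ _, addOrderOf_nsmul_eq_zero j⟩
  rw [← h4, Set.mem_toFinset] at h5
  exact h5

theorem exists_nat_smul {i j : ZMod m} (h : addOrderOf i = addOrderOf j) :
    ∃ n : ℕ, n.Coprime (addOrderOf i) ∧ n • i = j := by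
  obtain ⟨n, hn⟩ := AddSubgroup.mem_zmultiples_iff.1 (mem_zmultiples_of_order h)
  have h0 : 0 < addOrderOf i := addOrderOf_pos i
  obtain ⟨k, hk⟩ : ∃ k : ℕ, (k : ℤ) = n % (addOrderOf i : ℤ) :=
    ⟨(n % (addOrderOf i : ℤ)).toNat, Int.toNat_of_nonneg (Int.emod_nonneg _ (by omega))⟩
  have h1 : k • i = j := by
    rw [← hn, ← natCast_zsmul, hk, mod_addOrderOf_zsmul]
  refine ⟨k, ?_, h1⟩
  have h2 : addOrderOf (k • i) = addOrderOf i / Nat.gcd (addOrderOf i) k := addOrderOf_nsmul i
  rw [h1, ← h] at h2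
  have h3 := Nat.gcd_dvd_left (addOrderOf i) k
  have h4 : 0 < Nat.gcd (addOrderOf i) k := Nat.gcd_pos_of_pos_left _ h0
  have h5 := Nat.div_mul_cancel h3
  rw [← h2] at h5
  have h6 : Nat.gcd (addOrderOf i) k = 1 := by
    have : Nat.gcd (addOrderOf i) k * addOrderOf i = 1 * addOrderOf i := by rw [mul_comm, h5, one_mul]
    exact Nat.eq_of_mul_eq_mul_right h0 this
  rw [Nat.coprime_comm]
  exact h6

/-- **Dirichlet.** -/
theorem exists_prime_smul {i j : ZMod m} (h : addOrderOf i = addOrderOf j) (N : ℕ) :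
    ∃ q, N < q ∧ q.Prime ∧ q • i = j := by
  obtain ⟨n, hn, rfl⟩ := exists_nat_smul h
  obtain ⟨q, hq, hqp, hqn⟩ := Nat.forall_exists_prime_gt_and_modEq N (addOrderOf_pos i).ne' hn
  refine ⟨q, hq, hqp, ?_⟩
  rw [← mod_addOrderOf_nsmul, hqn, mod_addOrderOf_nsmul]

theorem smul_inj_of_coprime {q : ℕ} (hq : q.Coprime m) {i j : ZMod m} (h : q • i = q • j) : i = j := by
  rw [nsmul_eq_mul, nsmul_eq_mul] at h
  exact (ZMod.unitOfCoprime q hq).isUnit.mul_left_cancel h

theorem order_smul_of_coprime {q : ℕ} (hq : q.Coprime m) (i : ZMod m) : addOrderOf (q • i) = addOrderOf i := by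
  have h : addOrderOf i ∣ m := by
    have := addOrderOf_dvd_card (x := i)
    rwa [ZMod.card] at this
  rw [addOrderOf_nsmul i, (Nat.Coprime.coprime_dvd_right h hq).symm, Nat.div_one]

theorem sum_fiber {q : ℕ} (hq : q.Coprime m) {M : Type*} [AddCommMonoid M] (F : ZMod m → M) (i : ZMod m) :
    ∑ j ∈ Finset.univ.filter (fun j : ZMod m => q • j = q • i), F j = F i := by
  have : Finset.univ.filter (fun j : ZMod m => q • j = q • i) = {i} := by
    ext j
    rw [Finset.mem_filter, Finset.mem_singleton]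
    constructor
    · rintro ⟨-, h⟩
      exact smul_inj_of_coprime hq h
    · rintro rfl
      exact ⟨Finset.mem_univ _, rfl⟩
  rw [this, Finset.sum_singleton]

theorem smul_surj {q : ℕ} (hq : q.Coprime m) (i : ZMod m) : ∃ j : ZMod m, q • j = i := by
  refine ⟨(((ZMod.unitOfCoprime q hq)⁻¹ : (ZMod m)ˣ) : ZMod m) * i, ?_⟩
  rw [nsmul_eq_mul, ← mul_assoc]
  have : (q : ZMod m) = (ZMod.unitOfCoprime q hq : ZMod m) := rfl
  rw [this, Units.mul_inv, one_mul]

end Cfsg.Agent.H386.Dih
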